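import Mathlib
import Cfsg.Agent.Lib.Helper32.Scn.Tools

/-!
# S1904 package (Wt) (helper15): in case (β) with `Z(bigW X) = omZ X`, `bigW X = X`.
-/

set_option autoImplicit false

universe u

namespace Cfsg.Agent.Lib.Helper15.Scn

open Cfsg.Agent.Lib.Helper32.Scn

variable {X : Type u} [Group X]

/-- A nontrivial normal subgroup of a finite `p`-group meets the centre nontrivially. -/
theorem normal_meets_center [Finite X] {p : ℕ} [Fact p.Prime]
    (hX : IsPGroup p X) (N : Subgroup X) [hN : N.Normal] (hN1 : N ≠ ⊥) :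
    ∃ y ∈ N, y ∈ Subgroup.center X ∧ y ≠ 1 := by
  have hC : IsPGroup p (ConjAct X) := hX
  have hpN : p ∣ Nat.card N := by
    have hNp : IsPGroup p N := hX.to_subgroup N
    obtain ⟨n, hn⟩ := IsPGroup.iff_card.mp hNp
    have hn0 : n ≠ 0 := by
      rintro rfl
      rw [pow_zero] at hn
      exact hN1 ((Subgroup.card_eq_one).mp hn)
    rw [hn]
    exact dvd_pow_self p hn0
  obtain ⟨b, hb, hne⟩ :=
    hC.exists_fixed_point_of_prime_dvd_card_of_fixed_point (α := N) hpN (a := 1)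
      (by intro g; simp)
  refine ⟨b, b.2, ?_, ?_⟩
  · rw [Subgroup.mem_center_iff]
    intro g
    have h1 := hb (ConjAct.toConjAct g)
    have h2 : g * (b : X) * g⁻¹ = (b : X) := by
      have := congrArg Subtype.val h1
      rw [ConjAct.Subgroup.val_conj_smul, ConjAct.smul_def] at this
      simpa using this
    calc g * (b : X) = g * (b : X) * g⁻¹ * g := by group
      _ = (b : X) * g := by rw [h2]
  · intro h
    apply hne
    exact Subtype.ext h.symm

/-- for `w ∈ bigW X`, `x ↦ [x, w]` is multiplicative. -/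
theorem comm_mul_left {w : X} (hw : w ∈ bigW X) (x y : X) :
    (x * y) * w * (x * y)⁻¹ * w⁻¹ = (x * w * x⁻¹ * w⁻¹) * (y * w * y⁻¹ * w⁻¹) := by
  have h := omZ_comm (hw.2 y) x
  calc (x * y) * w * (x * y)⁻¹ * w⁻¹ = (x * (y * w * y⁻¹ * w⁻¹)) * (w * x⁻¹ * w⁻¹) := by group
    _ = ((y * w * y⁻¹ * w⁻¹) * x) * (w * x⁻¹ * w⁻¹) := by rw [h]
    _ = (y * w * y⁻¹ * w⁻¹) * (x * w * x⁻¹ * w⁻¹) := by group
    _ = (x * w * x⁻¹ * w⁻¹) * (y * w * y⁻¹ * w⁻¹) := (omZ_comm (hw.2 y) _).symm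

theorem eq_of_comm_eq_one {a w : X} (h : a * w * a⁻¹ * w⁻¹ = 1) : a * w = w * a := by
  have h1 : a * w * a⁻¹ = w := mul_inv_eq_one.mp h
  calc a * w = (a * w * a⁻¹) * a := by group
    _ = w * a := by rw [h1]

/-- squares centralize `bigW X`. -/
theorem sq_centralizes {w : X} (hw : w ∈ bigW X) (x : X) : (x * x) * w = w * (x * x) := by
  have h1 := comm_mul_left hw x x
  rw [omZ_sq (hw.2 x)] at h1
  exact eq_of_comm_eq_one h1

theorem comm_inv_left {w : X} (hw : w ∈ bigW X) (x : X) :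
    x⁻¹ * w * x⁻¹⁻¹ * w⁻¹ = x * w * x⁻¹ * w⁻¹ := by
  have h1 := comm_mul_left hw x x⁻¹
  have h2 : (x * x⁻¹) * w * (x * x⁻¹)⁻¹ * w⁻¹ = 1 := by group
  rw [h2] at h1
  have h3 := omZ_sq (hw.2 x)
  -- 1 = c_x * c_{x⁻¹}, c_x * c_x = 1
  have h4 : (x * w * x⁻¹ * w⁻¹) * (x⁻¹ * w * x⁻¹⁻¹ * w⁻¹)
      = (x * w * x⁻¹ * w⁻¹) * (x * w * x⁻¹ * w⁻¹) := by rw [← h1, h3]
  exact mul_left_cancel h4

/-- commutators centralize `bigW X`. -/
theorem comm_centralizes {w : X} (hw : w ∈ bigW X) (g x : X) :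
    (g * x * g⁻¹ * x⁻¹) * w = w * (g * x * g⁻¹ * x⁻¹) := by
  apply eq_of_comm_eq_one
  rw [comm_mul_left hw (g * x * g⁻¹) x⁻¹, comm_mul_left hw (g * x) g⁻¹, comm_mul_left hw g x,
    comm_inv_left hw g, comm_inv_left hw x]
  have hg := hw.2 g
  have hx := hw.2 x
  have hgx := omZ_sq ((omZ X).mul_mem hg hx)
  calc (g * w * g⁻¹ * w⁻¹) * (x * w * x⁻¹ * w⁻¹) * (g * w * g⁻¹ * w⁻¹) * (x * w * x⁻¹ * w⁻¹)
      = ((g * w * g⁻¹ * w⁻¹) * (x * w * x⁻¹ * w⁻¹))
        * ((g * w * g⁻¹ * w⁻¹) * (x * w * x⁻¹ * w⁻¹)) := by simp only [mul_assoc]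
    _ = 1 := hgx

/-- `C_X(bigW X) ≤ omZ X` when `Z(bigW X) ≤ omZ X` in a finite 2-group. -/
theorem centralizer_bigW_le [Finite X] (h2 : IsPGroup 2 X)
    (hZ : ∀ w ∈ bigW X, (∀ w' ∈ bigW X, w * w' = w' * w) → w ∈ omZ X)
    (d : X) (hd : ∀ w ∈ bigW X, d * w = w * d) : d ∈ omZ X := by
  classical
  by_contra hdV
  have : Fact (Nat.Prime 2) := ⟨Nat.prime_two⟩
  let C : Subgroup X := Subgroup.centralizer (bigW X : Set X)
  have hdC : d ∈ C := by
    rw [Subgroup.mem_centralizer_iff]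
    intro w hw
    exact (hd w hw).symm
  let π : X →* X ⧸ omZ X := QuotientGroup.mk' (omZ X)
  have hπsurj : Function.Surjective π := QuotientGroup.mk'_surjective _
  let N : Subgroup (X ⧸ omZ X) := C.map π
  have hNn : N.Normal := Subgroup.Normal.map inferInstance π hπsurj
  have hQ : IsPGroup 2 (X ⧸ omZ X) := h2.to_quotient (omZ X)
  have hπ1 : ∀ x : X, π x = 1 ↔ x ∈ omZ X := fun x => QuotientGroup.eq_one_iff x
  -- the intersection with the centre, as a normal subgroup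
  let K : Subgroup (X ⧸ omZ X) := N ⊓ Subgroup.center (X ⧸ omZ X)
  have hK1 : K ≠ ⊥ := by
    have hN1 : N ≠ ⊥ := by
      intro hb
      have : π d ∈ N := Subgroup.mem_map_of_mem π hdC
      rw [hb, Subgroup.mem_bot, hπ1] at this
      exact hdV this
    obtain ⟨y, hyN, hyZ, hy1⟩ := normal_meets_center hQ N hN1
    intro hb
    have : y ∈ K := ⟨hyN, hyZ⟩
    rw [hb, Subgroup.mem_bot] at this
    exact hy1 this
  have hKp : IsPGroup 2 K := hQ.to_subgroup K
  have h2K : 2 ∣ Nat.card K := by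
    obtain ⟨n, hn⟩ := IsPGroup.iff_card.mp hKp
    have hn0 : n ≠ 0 := by
      rintro rfl
      rw [pow_zero] at hn
      exact hK1 ((Subgroup.card_eq_one).mp hn)
    rw [hn]
    exact dvd_pow_self 2 hn0
  obtain ⟨k, hk⟩ := exists_prime_orderOf_dvd_card' (G := K) 2 h2K
  have hk1 : (k : X ⧸ omZ X) ≠ 1 := by
    intro hc
    have : k = 1 := Subtype.ext hc
    rw [this, orderOf_one] at hk
    norm_num at hk
  have hk2 : (k : X ⧸ omZ X) * (k : X ⧸ omZ X) = 1 := by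
    have := pow_orderOf_eq_one k
    rw [hk] at this
    have h3 := congrArg Subtype.val this
    simpa [pow_two] using h3
  have hkN : (k : X ⧸ omZ X) ∈ N := k.2.1
  have hkZ : (k : X ⧸ omZ X) ∈ Subgroup.center (X ⧸ omZ X) := k.2.2
  obtain ⟨e, heC, hek⟩ := Subgroup.mem_map.mp hkN
  have heV : e ∉ omZ X := by
    intro hc
    rw [← hπ1, hek] at hc
    exact hk1 hc
  have heW : e ∈ bigW X := by
    refine ⟨?_, fun g => ?_⟩
    · rw [← hπ1, map_mul, hek]
      exact hk2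
    · rw [← hπ1, map_mul, map_mul, map_mul, map_inv, map_inv, hek]
      have := Subgroup.mem_center_iff.mp hkZ (π g)
      rw [this]
      group
  apply heV
  apply hZ e heW
  intro w' hw'
  rw [Subgroup.mem_centralizer_iff] at heC
  exact (heC w' hw').symm

/-- **(Wt)** -/
theorem lemWtop : LemWtop.{u} := by
  intro X _ _ A φ h hZ x
  have h2 : IsPGroup 2 X := h.hyp.two
  refine ⟨?_, fun g => ?_⟩
  · exact centralizer_bigW_le h2 hZ (x * x) (fun w hw => sq_centralizes hw x)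
  · exact centralizer_bigW_le h2 hZ (g * x * g⁻¹ * x⁻¹) (fun w hw => comm_centralizes hw g x)

end Cfsg.Agent.Lib.Helper15.Scn

example : Cfsg.Agent.Lib.Helper32.Scn.LemWtop.{u} := Cfsg.Agent.Lib.Helper15.Scn.lemWtop
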